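import Cfsg.Agent.E8Deg.Data.Simple

/-! The centre of the Heisenberg radical of type E8 and a maximal abelian subgroup of the radical. -/

set_option autoImplicit false

namespace CfsgLib.E8Deg

/-- The centre. -/
def stepZ : Step where
  S := [239]
  ctr := []
  lev := []
  nodes := []
  prev := [239]
  act := 0
  betT := 0
  psiW := [(0, 0, 0, 0)]
  perm := []
  words := [[]]
  gam := 120
  beta := 0
  wit := []

/-- The coordinate of the centre. -/
def topZ : stepZ.Co := ⟨0, by decide⟩

/-- A maximal abelian subgroup. -/
def stepA : Step where
  S := [202, 209, 211, 203, 212, 215, 213, 216, 220, 217, 221, 227, 218, 222, 223, 224, 225, 228, 229, 230, 231, 232, 233, 234, 235, 236, 237, 238]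
  ctr := []
  lev := []
  nodes := []
  prev := [202, 209, 211, 203, 212, 215, 213, 216, 220, 217, 221, 227, 218, 222, 223, 224, 225, 228, 229, 230, 231, 232, 233, 234, 235, 236, 237, 238]
  act := 0
  betT := 0
  psiW := []
  perm := []
  words := []
  gam := 0
  beta := 0
  wit := []

/-- The roots completing those of `stepA` to the highest root. -/
def partA : List ℕ := [208, 201, 199, 206, 198, 193, 196, 192, 183, 190, 182, 161, 187, 180, 177, 173, 168, 160, 158, 155, 151, 146, 140, 134, 129, 125, 122, 120]

theorem okZ : Ok Cfsg.Lie.chevE8 stepZ topZ :=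
  ⟨chkShape_of _ _ simpleE8 (by decide +kernel), by decide +kernel, by decide +kernel,
    by decide +kernel, by decide +kernel, by decide +kernel, by decide +kernel, by decide +kernel,
    by decide +kernel⟩

theorem shapeA : chkShape Cfsg.Lie.chevE8 stepA = true :=
  chkShape_of _ _ simpleE8 (by decide +kernel)

end CfsgLib.E8Deg
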