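import Cfsg.Agent.E8Deg.Data.Simple

/-! The tables of step 7 of the chain of radicals of type E8. -/

set_option autoImplicit false
set_option maxRecDepth 8000
set_option Elab.async false

namespace CfsgLib.E8Deg

/-- Step 7. -/
def step7 : Step where
  S := [123]
  ctr := []
  lev := []
  nodes := []
  prev := [116, 123]
  act := 0
  betT := 0
  psiW := [(0, 0, 0, 0)]
  perm := [[],
    [],
    [],
    [],
    [],
    [],
    [],
    []]
  words := [[]]
  gam := 2
  beta := 0
  wit := []

/-- The highest coordinate of step 7. -/
def top7 : step7.Co := ⟨0, by decide⟩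

theorem shape7 : chkShape Cfsg.Lie.chevE8 step7 = true :=
  chkShape_of _ _ simpleE8 (by decide +kernel)

theorem normal7 : chkNormal Cfsg.Lie.chevE8 step7 = true := by decide +kernel

theorem bet7 : chkBet Cfsg.Lie.chevE8 step7 = true := by decide +kernel

theorem clr7 : chkClear Cfsg.Lie.chevE8 step7 top7 = true := by decide +kernel

theorem psi7 : chkPsi Cfsg.Lie.chevE8 step7 top7 = true := by decide +kernel

theorem perm7 : chkPerm Cfsg.Lie.chevE8 step7 = true := by decide +kernel

theorem words7 : chkWords Cfsg.Lie.chevE8 step7 top7 = true := by decide +kernel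

theorem low7 : chkLow Cfsg.Lie.chevE8 step7 = true := by decide +kernel

theorem gam7 : chkGam Cfsg.Lie.chevE8 step7 top7 = true := by decide +kernel

theorem ok7 : Ok Cfsg.Lie.chevE8 step7 top7 :=
  ⟨shape7, normal7, bet7, clr7, psi7, perm7, words7, low7, gam7⟩

theorem n1_7 : step7.n1 Cfsg.Lie.chevE8 top7 = 0 := by decide +kernel

theorem lows7 : (List.finRange _).map (fun s => (step7.low Cfsg.Lie.chevE8 s).length) =
    [0] := by decide +kernel

end CfsgLib.E8Deg
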