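import Cfsg.Agent.E8Deg.Step
import Cfsg.Prelude.Def_ChevE8
import Cfsg.Agent.Eq.Def_ChevE8

/-! The chains of type E8 have length one. -/

set_option autoImplicit false

namespace CfsgLib.E8Deg

theorem simpleE8 : chkSimple Cfsg.Lie.chevE8 = true := by decide +kernel

end CfsgLib.E8Deg
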